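import Mathlib

/-!
Counting involutions, and pairs of involutions with product of odd order, in `A₅`.
-/

set_option autoImplicit false

namespace CfsgLib.InvChar.A5

open Equiv

def invL : List (Perm (Fin 5)) := [swap 0 1 * swap 2 3, swap 0 2 * swap 1 3, swap 0 3 * swap 1 2,
  swap 0 1 * swap 2 4, swap 0 2 * swap 1 4, swap 0 4 * swap 1 2,
  swap 0 1 * swap 3 4, swap 0 3 * swap 1 4, swap 0 4 * swap 1 3,
  swap 0 2 * swap 3 4, swap 0 3 * swap 2 4, swap 0 4 * swap 2 3,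
  swap 1 2 * swap 3 4, swap 1 3 * swap 2 4, swap 1 4 * swap 2 3]

theorem mem_invL : ∀ k : Perm (Fin 5), k ∈ invL ↔ (Perm.sign k = 1 ∧ k * k = 1 ∧ k ≠ 1) := by
  decide +kernel

theorem c195 : ((invL.toFinset ×ˢ insert 1 invL.toFinset).filter
    fun p => ∀ i, (fun j => p.1 (p.2 j))^[15] i = i).card = 195 := by
  decide +kernel

theorem c15 : invL.toFinset.card = 15 := by
  decide +kernel

theorem card_inv : Nat.card {k : alternatingGroup (Fin 5) // k * k = 1 ∧ k ≠ 1} = 15 := by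
  rw [← c15, ← Nat.card_eq_finsetCard]
  refine Nat.card_congr (Equiv.ofBijective (fun k => ⟨k.1.1, ?_⟩) ⟨?_, ?_⟩)
  · rw [List.mem_toFinset, mem_invL]
    exact ⟨k.1.2, congrArg Subtype.val k.2.1, fun h => k.2.2 (Subtype.ext h)⟩
  · intro a b h
    have h := congrArg Subtype.val h
    exact Subtype.ext (Subtype.ext h)
  · rintro ⟨k, hk⟩
    rw [List.mem_toFinset, mem_invL] at hk
    exact ⟨⟨⟨k, hk.1⟩, Subtype.ext hk.2.1, fun h => hk.2.2 (congrArg Subtype.val h)⟩, rfl⟩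

theorem pow_iff (a b : Perm (Fin 5)) :
    (∀ i, (fun j => a (b j))^[15] i = i) ↔ (a * b) ^ 15 = 1 := by
  rw [Perm.ext_iff]
  simp only [Perm.coe_pow, Perm.coe_one, id]
  rfl

theorem card_pairs : Nat.card {p : alternatingGroup (Fin 5) × alternatingGroup (Fin 5) //
    (p.1 * p.1 = 1 ∧ p.1 ≠ 1) ∧ p.2 * p.2 = 1 ∧ (p.1 * p.2) ^ 15 = 1} = 195 := by
  rw [← c195, ← Nat.card_eq_finsetCard]
  refine Nat.card_congr (Equiv.ofBijective (fun k => ⟨(k.1.1.1, k.1.2.1), ?_⟩) ⟨?_, ?_⟩)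
  · obtain ⟨⟨a, b⟩, ⟨h1, h2⟩, h3, h4⟩ := k
    simp only [Finset.mem_filter, Finset.mem_product, Finset.mem_insert, List.mem_toFinset,
      mem_invL, pow_iff]
    refine ⟨⟨⟨a.2, congrArg Subtype.val h1, fun h => h2 (Subtype.ext h)⟩, ?_⟩,
      congrArg Subtype.val h4⟩
    by_cases hb : b.1 = 1
    · exact Or.inl hb
    · exact Or.inr ⟨b.2, congrArg Subtype.val h3, hb⟩
  · intro a b h
    have h := congrArg Subtype.val h
    exact Subtype.ext (Prod.ext (Subtype.ext (congrArg Prod.fst h))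
      (Subtype.ext (congrArg Prod.snd h)))
  · rintro ⟨⟨a, b⟩, hk⟩
    have hk' := hk
    simp only [Finset.mem_filter, Finset.mem_product, Finset.mem_insert, List.mem_toFinset,
      mem_invL, pow_iff] at hk'
    obtain ⟨⟨⟨h1, h2, h3⟩, h4⟩, h5⟩ := hk'
    have hb : Perm.sign b = 1 ∧ b * b = 1 := by
      rcases h4 with rfl | h4
      · simp
      · exact ⟨h4.1, h4.2.1⟩
    exact ⟨⟨(⟨a, h1⟩, ⟨b, hb.1⟩), ⟨Subtype.ext h2, fun h => h3 (congrArg Subtype.val h)⟩,
      Subtype.ext hb.2, Subtype.ext h5⟩, rfl⟩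

theorem card_A5 : Nat.card (alternatingGroup (Fin 5)) = 60 := by
  rw [Nat.card_eq_fintype_card, card_alternatingGroup, Fintype.card_fin]
  rfl

/-- A group isomorphic to `A₅` has no nontrivial homomorphism to `{±1}`. -/
theorem hom_eq_one {K : Type*} [Group K] (e : K ≃* alternatingGroup (Fin 5)) (f : K →* ℤˣ)
    (k : K) : f k = 1 := by
  have hs : IsSimpleGroup K := e.isSimpleGroup
  rcases hs.eq_bot_or_eq_top_of_normal f.ker inferInstance with h | h
  · have h1 := Nat.card_le_card_of_injective f ((MonoidHom.ker_eq_bot_iff f).1 h)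
    rw [Nat.card_congr e.toEquiv, card_A5, Nat.card_eq_fintype_card, Fintype.card_units_int] at h1
    omega
  · exact MonoidHom.mem_ker.1 (h ▸ Subgroup.mem_top k)

theorem card_inv' {K : Type*} [Group K] (e : K ≃* alternatingGroup (Fin 5)) :
    Nat.card {k : K // k * k = 1 ∧ k ≠ 1} = 15 := by
  rw [← card_inv]
  refine Nat.card_congr (e.toEquiv.subtypeEquiv fun k => ?_)
  simp [← map_mul]

theorem card_pairs' {K : Type*} [Group K] (e : K ≃* alternatingGroup (Fin 5)) :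
    Nat.card {p : K × K // (p.1 * p.1 = 1 ∧ p.1 ≠ 1) ∧ p.2 * p.2 = 1 ∧ (p.1 * p.2) ^ 15 = 1} =
      195 := by
  rw [← card_pairs]
  refine Nat.card_congr ((e.toEquiv.prodCongr e.toEquiv).subtypeEquiv fun k => ?_)
  simp [← map_mul, ← map_pow]

end CfsgLib.InvChar.A5
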