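import Mathlib
import Cfsg.Agent.Lib.InvChar.EarlyA
import Cfsg.Agent.Lib.ZStar.Main

/-!
In a non-abelian simple group of even order all of whose `2`-local subgroups have characteristic
2, some maximal `2`-local subgroup `M` has non-cyclic `Z(O₂(M))`.
-/

set_option autoImplicit false
set_option linter.unusedSectionVars false

namespace CfsgLib.InvChar.Early

open Subgroup Cfsg CfsgLib.Core CfsgLib.Tech

variable {G : Type*} [Group G] [Finite G]

/-- If the cores of all involution centralizers vanish and these are `2`-constrained, the cores of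
all `2`-local subgroups vanish. -/
theorem core_normalizer_eq_bot
    (hcon : ∀ t : G, orderOf t = 2 → IsPConstrained 2 (centralizer ({t} : Set G)))
    (h0 : ∀ t : G, orderOf t = 2 → centralizerPPrimeCore 2 t = ⊥) {T : Subgroup G}
    (hT : IsPGroup 2 T) (hT1 : T ≠ ⊥) : pPrimeCore 2 (normalizer (T : Set G)) = ⊥ := by
  obtain ⟨t, htT, htc, ht⟩ := CfsgLib.InvHarv.exists_central_orderOf_eq hT hT1
  have hTt : T ≤ centralizer {t} := fun y hy => mem_centralizer_singleton_iff.2 (htc y hy)
  have h1 := core_centralizer (hcon t ht) hT hTt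
  have h2 : centralizer ({t} : Set G) ⊓ centralizer (T : Set G) ≤ normalizer (T : Set G) :=
    inf_le_right.trans (centralizer_le_normalizer _)
  have h3 := map_pPrimeCore_inf_le (p := 2) h2
  have h4 : (pPrimeCore 2 (normalizer (T : Set G))).map (normalizer (T : Set G)).subtype ≤
      centralizer (T : Set G) := by
    rintro _ ⟨x, hx, rfl⟩ y hy
    have hy' : (⟨y, le_normalizer hy⟩ : normalizer (T : Set G)) ∈
        pCore 2 (normalizer (T : Set G)) := by
      have := le_map_pCore (H := normalizer (T : Set G)) le_normalizer le_rfl hT hy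
      obtain ⟨y', hy', e⟩ := this
      rwa [show (⟨y, le_normalizer hy⟩ : normalizer (T : Set G)) = y' from Subtype.ext e.symm]
    exact congrArg Subtype.val (pPrimeCore_le_centralizer_pCore hx _ hy')
  have h5 : centralizer (T : Set G) ≤ centralizer {t} := centralizer_le (by simpa using htT)
  have h6 := (le_trans (le_inf le_rfl (le_inf (h4.trans h5) h4)) h3).trans h1
  have h7 := h0 t ht
  unfold centralizerPPrimeCore at h7
  rwa [h7, le_bot_iff, map_eq_bot_iff_of_injective _ (subtype_injective _)] at h6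

theorem exists_maximalTwoLocal {N : Subgroup G} (hN : IsTwoLocal N) :
    ∃ M, IsMaximalTwoLocal M ∧ N ≤ M := by
  obtain ⟨M, hNM, hM⟩ := Finite.exists_le_maximal (p := fun M : Subgroup G => IsTwoLocal M) hN
  exact ⟨M, ⟨hM.1, fun L hL hML => le_antisymm (hM.2 hL hML) hML⟩, hNM⟩

theorem eq_of_isCyclic {H : Type*} [Group H] [Finite H] [IsCyclic H] {a b : H}
    (ha : orderOf a = 2) (hb : orderOf b = 2) : a = b := by
  classical
  have := Fintype.ofFinite H
  have h := IsCyclic.card_orderOf_eq_totient (α := H) (d := 2) (ha ▸ orderOf_dvd_card)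
  rw [Nat.totient_two, Finset.card_eq_one] at h
  obtain ⟨c, hc⟩ := h
  have h1 : a ∈ ({c} : Finset H) := hc ▸ by simpa using ha
  have h2 : b ∈ ({c} : Finset H) := hc ▸ by simpa using hb
  rw [Finset.mem_singleton.1 h1, Finset.mem_singleton.1 h2]

section Main

variable (hchar : ∀ T : Subgroup G, IsPGroup 2 T → T ≠ ⊥ →
    centralizer (pCore 2 (normalizer (T : Set G)) : Set (normalizer (T : Set G))) ≤
      pCore 2 (normalizer (T : Set G)))
  (hcyc : ∀ M : Subgroup G, IsMaximalTwoLocal M → IsCyclic (center (pCore 2 M)))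

include hchar hcyc in
theorem max_local {M : Subgroup G} (hM : IsMaximalTwoLocal M) :
    ∃ u : G, orderOf u = 2 ∧ M = centralizer {u} ∧ ∀ v ∈ M, orderOf v = 2 →
      v ∈ centralizer ((pCore 2 M).map M.subtype : Set G) → v = u := by
  have hc := hcyc M hM
  obtain ⟨T, hT, hT1, hMT⟩ := hM.1
  have hch : centralizer (pCore 2 M : Set M) ≤ pCore 2 M := by
    rw [hMT]; exact hchar T hT hT1
  have hTO : T ≤ (pCore 2 M).map M.subtype :=
    le_map_pCore (hMT ▸ le_normalizer) hMT.le hT
  have hO1 : (pCore 2 M).map M.subtype ≠ ⊥ := fun h => hT1 (le_bot_iff.1 (h ▸ hTO))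
  obtain ⟨u, huO, huc, hu⟩ :=
    CfsgLib.InvHarv.exists_central_orderOf_eq (isPGroup_map_pCore M) hO1
  have huM : u ∈ M := map_subtype_le _ huO
  have key : ∀ v ∈ M, orderOf v = 2 →
      v ∈ centralizer ((pCore 2 M).map M.subtype : Set G) →
      ∃ x : center (pCore 2 M), ((x : pCore 2 M) : M) = v ∧ orderOf x = 2 := by
    intro v hv hv2 hvc
    have h1 : (⟨v, hv⟩ : M) ∈ centralizer (pCore 2 M : Set M) := fun y hy =>
      Subtype.ext (hvc y ⟨y, hy, rfl⟩)
    refine ⟨⟨⟨⟨v, hv⟩, hch h1⟩, mem_center_iff.2 fun y => Subtype.ext (h1 y y.2)⟩, rfl, ?_⟩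
    rw [← Subgroup.orderOf_coe, ← Subgroup.orderOf_coe, ← Subgroup.orderOf_coe]
    exact hv2
  have uniq : ∀ v ∈ M, orderOf v = 2 →
      v ∈ centralizer ((pCore 2 M).map M.subtype : Set G) → v = u := by
    intro v hv hv2 hvc
    obtain ⟨x, hx, hx2⟩ := key v hv hv2 hvc
    obtain ⟨y, hy, hy2⟩ := key u huM hu huc
    rw [← hx, ← hy, eq_of_isCyclic hx2 hy2]
  refine ⟨u, hu, ?_, uniq⟩
  have hle : M ≤ centralizer {u} := by
    intro g hg
    have hgn := normalizer_le_normalizer_map_pCore (p := 2) M (le_normalizer hg)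
    have h1 : g * u * g⁻¹ = u := by
      refine uniq _ (M.mul_mem (M.mul_mem hg huM) (M.inv_mem hg))
        (by rw [orderOf_conj_eq, hu]) fun y hy => ?_
      have h2 := huc _ (conj_mem_of_mem_normalizer' hgn hy)
      calc y * (g * u * g⁻¹) = g * (g⁻¹ * y * g * u) * g⁻¹ := by group
        _ = g * (u * (g⁻¹ * y * g)) * g⁻¹ := by rw [h2]
        _ = g * u * g⁻¹ * y := by group
    rw [mem_centralizer_singleton_iff]
    calc g * u = g * u * g⁻¹ * g := by group
      _ = u * g := by rw [h1]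
  refine (hM.2 _ ⟨zpowers u, isPGroup_two_zpowers (mul_self_of_orderOf_two hu), ?_,
    (CfsgLib.InvHarv.normalizer_zpowers_of_orderOf_two hu).symm⟩ hle).symm
  rw [Ne, zpowers_eq_bot]
  exact ne_one_of_orderOf_two hu

include hchar hcyc in
theorem exists_central {D : Subgroup G} (hD : IsPGroup 2 D) (hD1 : D ≠ ⊥) :
    ∃ u : G, ∃ T : Subgroup G, orderOf u = 2 ∧ normalizer (D : Set G) ≤ centralizer {u} ∧
      IsSylowIn 2 T ⊤ ∧ T ≤ centralizer {u} ∧
      ∀ v : G, orderOf v = 2 → T ≤ centralizer {v} → v = u := by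
  obtain ⟨M, hM, hDM⟩ := exists_maximalTwoLocal (N := normalizer (D : Set G)) ⟨D, hD, hD1, rfl⟩
  obtain ⟨u, hu, hMu, uniq⟩ := max_local hchar hcyc hM
  obtain ⟨T, hT⟩ := exists_isSylowIn 2 M
  have hOT : (pCore 2 M).map M.subtype ≤ T :=
    hT.le_of_le_normalizer (isPGroup_map_pCore M) (map_subtype_le _)
      (le_normalizer.trans (normalizer_le_normalizer_map_pCore M))
  have huniq : ∀ v ∈ M, orderOf v = 2 → T ≤ centralizer {v} → v = u := fun v hv hv2 hTv =>
    uniq v hv hv2 fun y hy => mem_centralizer_singleton_iff.1 (hTv (hOT hy))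
  have hTu : T ≤ centralizer {u} := hMu ▸ hT.le
  have huM : u ∈ M := hMu ▸ mem_centralizer_singleton_iff.2 rfl
  have huT : u ∈ T := hT.le_of_normalizes (isPGroup_two_zpowers (mul_self_of_orderOf_two hu))
    (zpowers_le.2 huM) (zpowers_le.2 (centralizer_le_normalizer _ fun y hy =>
      mem_centralizer_singleton_iff.1 (hTu hy))) (mem_zpowers u)
  have hTG : IsSylowIn 2 T ⊤ := by
    by_contra hn
    obtain ⟨R, hR, hTR, -, hRn⟩ := exists_lt_pgroup_normalizer hT.pgroup le_top hn
    refine hTR.ne' (hT.eq_of_le hR hTR.le fun r hr => ?_)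
    have h1 : r * u * r⁻¹ = u := by
      refine huniq _ (hT.le (conj_mem_of_mem_normalizer (hRn hr) huT))
        (by rw [orderOf_conj_eq, hu]) ?_
      rw [← cj_centralizer_singleton, ← mem_normalizer_iff_cj.1 (hRn hr)]
      exact cj_mono r hTu
    rw [hMu, mem_centralizer_singleton_iff]
    calc r * u = r * u * r⁻¹ * r := by group
      _ = u * r := by rw [h1]
  refine ⟨u, T, hu, hMu ▸ hDM, hTG, hTu, fun v hv hTv => huniq v (hT.le ?_) hv hTv⟩
  exact hTG.le_of_normalizes (isPGroup_two_zpowers (mul_self_of_orderOf_two hv)) le_top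
    (zpowers_le.2 (centralizer_le_normalizer _ fun y hy =>
      mem_centralizer_singleton_iff.1 (hTv hy))) (mem_zpowers v)

include hchar hcyc in
theorem unique_central {T : Subgroup G} (hT : IsSylowIn 2 T ⊤) {u v : G} (hu : orderOf u = 2)
    (hv : orderOf v = 2) (hTu : T ≤ centralizer {u}) (hTv : T ≤ centralizer {v}) : u = v := by
  obtain ⟨w, T0, -, -, hT0, -, uniq⟩ := exists_central hchar hcyc
    (isPGroup_two_zpowers (mul_self_of_orderOf_two hu))
    (by rw [Ne, zpowers_eq_bot]; exact ne_one_of_orderOf_two hu)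
  obtain ⟨g, -, hg⟩ := hT.exists_cj_eq hT0
  have h1 := uniq (g * u * g⁻¹) (by rw [orderOf_conj_eq, hu])
    (by rw [← cj_centralizer_singleton, ← hg]; exact cj_mono g hTu)
  have h2 := uniq (g * v * g⁻¹) (by rw [orderOf_conj_eq, hv])
    (by rw [← cj_centralizer_singleton, ← hg]; exact cj_mono g hTv)
  simpa using h1.trans h2.symm

include hchar hcyc in
theorem eq_of_common (D : Subgroup G) : IsPGroup 2 D → D ≠ ⊥ → ∀ u v : G,
    (orderOf u = 2 ∧ ∃ T, IsSylowIn 2 T ⊤ ∧ T ≤ centralizer {u}) →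
    (orderOf v = 2 ∧ ∃ T, IsSylowIn 2 T ⊤ ∧ T ≤ centralizer {v}) →
    D ≤ centralizer {u} → D ≤ centralizer {v} → u = v := by
  induction D using WellFoundedGT.induction with
  | ind D ih =>
  intro hD hD1
  obtain ⟨w, T0, hw, hDw, hT0, hT0w, -⟩ := exists_central hchar hcyc hD hD1
  have key : ∀ u : G, (orderOf u = 2 ∧ ∃ T, IsSylowIn 2 T ⊤ ∧ T ≤ centralizer {u}) →
      D ≤ centralizer {u} → u = w := by
    rintro u ⟨hu, T1, hT1, hT1u⟩ hDu
    obtain ⟨T, hT, hDT⟩ := exists_isSylowIn_ge hD hDu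
    have hTG : IsSylowIn 2 T ⊤ :=
      hT1.of_card_le hT.pgroup le_top (hT.card_le hT1.pgroup hT1u)
    rcases hDT.eq_or_lt with h | h
    · subst h
      exact unique_central hchar hcyc hTG hu hw hDu (le_normalizer.trans hDw)
    · have hlt := lt_inf_normalizer_of_lt hT.pgroup h
      exact ih _ hlt (hT.pgroup.to_le inf_le_left) (ne_bot_of_gt hlt) u w ⟨hu, T1, hT1, hT1u⟩
        ⟨hw, T0, hT0, hT0w⟩ (inf_le_left.trans hT.le) (inf_le_right.trans hDw)
  intro u v hu hv hDu hDv
  rw [key u hu hDu, key v hv hDv]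

include hchar hcyc in
theorem exists_isolated {D : Subgroup G} (hD : IsPGroup 2 D) (hD1 : D ≠ ⊥) :
    ∃ u : G, IsIsolatedInvolution u := by
  obtain ⟨u, T, hu, -, hT, hTu, -⟩ := exists_central hchar hcyc hD hD1
  refine ⟨u, hu, fun g hg => ?_⟩
  refine eq_of_common hchar hcyc (zpowers u) (isPGroup_two_zpowers (mul_self_of_orderOf_two hu))
    (by rw [Ne, zpowers_eq_bot]; exact ne_one_of_orderOf_two hu) _ _
    ⟨by rw [orderOf_conj_eq, hu], cj g T, hT.cj_of_mem (mem_top g), ?_⟩ ⟨hu, T, hT, hTu⟩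
    (zpowers_le.2 (mem_centralizer_singleton_iff.2 hg.eq))
    (zpowers_le.2 (mem_centralizer_singleton_iff.2 rfl))
  rw [← cj_centralizer_singleton]
  exact cj_mono g hTu

end Main

/-- A non-abelian simple group of even order and characteristic 2 type has a maximal `2`-local
subgroup `M` with `Z(O₂(M))` non-cyclic. -/
theorem exists_noncyclic_center [IsSimpleGroup G] (hG : ¬ IsMulCommutative G)
    (hchar : ∀ T : Subgroup G, IsPGroup 2 T → T ≠ ⊥ →
      centralizer (pCore 2 (normalizer (T : Set G)) : Set (normalizer (T : Set G))) ≤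
        pCore 2 (normalizer (T : Set G))) {D : Subgroup G} (hD : IsPGroup 2 D) (hD1 : D ≠ ⊥) :
    ∃ M : Subgroup G, IsMaximalTwoLocal M ∧ ¬ IsCyclic (center (pCore 2 M)) := by
  by_contra! hcyc
  obtain ⟨u, hu⟩ := exists_isolated hchar hcyc hD hD1
  exact CfsgLib.ZStar.not_isolated_of_simple hG u hu

end CfsgLib.InvChar.Early
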