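import Mathlib
import Cfsg.Agent.Lib.ExtraTwo.Coord

/-!
A nondegenerate quadratic space of order 16 over `F₂` with an isometry of order 5 is the space
`F₂⁴` with the form `∑_{i<j} xᵢ xⱼ`, whose five singular points are permuted by all isometries.
-/

set_option autoImplicit false

namespace CfsgLib.InvChar.HJ

open Equiv QuadraticMap CfsgLib.ExtraTwo

/-- the five singular points -/
def s : Fin 5 → Fin 4 → ZMod 2 := ![![1,0,0,0], ![0,1,0,0], ![0,0,1,0], ![0,0,0,1], ![1,1,1,1]]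

def q0 (x : Fin 4 → ZMod 2) : ZMod 2 :=
  x 0 * x 1 + x 0 * x 2 + x 0 * x 3 + x 1 * x 2 + x 1 * x 3 + x 2 * x 3

/-- the linear map permuting the singular points like `τ` -/
def A (τ : Perm (Fin 5)) (x : Fin 4 → ZMod 2) : Fin 4 → ZMod 2 :=
  x 0 • s (τ 0) + x 1 • s (τ 1) + x 2 • s (τ 2) + x 3 • s (τ 3)

theorem s_injective : Function.Injective s := by decide +kernel

theorem sing_iff : ∀ x, (q0 x = 0 ∧ x ≠ 0) ↔ ∃ i, x = s i := by decide +kernel

theorem q0_add : ∀ x y, (q0 x = 0 ∧ q0 y = 0 ∧ x ≠ 0 ∧ y ≠ 0 ∧ x ≠ y) → q0 (x + y) = 1 := by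
  decide +kernel

theorem A_one : ∀ x, A 1 x = x := by decide +kernel

theorem key1 : ∀ τ : Perm (Fin 5), τ * τ = 1 → τ ≠ 1 → Perm.sign τ = 1 →
    ∀ x, A τ x = x → ∃ y, x = y + A τ y := by
  decide +kernel

theorem key2 : ∀ τ : Perm (Fin 5), τ * τ = 1 → τ ≠ 1 → Perm.sign τ = 1 →
    (Finset.univ.filter fun x => A τ x = x).card = 4 := by
  decide +kernel

theorem key3 : ∀ τ : Perm (Fin 5), τ * τ = 1 → τ ≠ 1 → Perm.sign τ = 1 →
    (Finset.univ.filter fun x => q0 x = 0 ∧ A τ x ≠ x).card = 4 := by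
  decide +kernel

def M (x : Fin 4 → ZMod 2) : Fin 4 → ZMod 2 := ![x 3, x 0 + x 3, x 1 + x 3, x 2 + x 3]

theorem M_gen : ∀ x : Fin 4 → ZMod 2, x ≠ 0 → ∃ d : Fin 4 → ZMod 2,
    d 0 • x + d 1 • M x + d 2 • M (M x) + d 3 • M (M (M x)) = ![1, 0, 0, 0] := by
  decide +kernel

def f (a b c : ZMod 2) (x : Fin 4 → ZMod 2) : ZMod 2 :=
  a * (x 0 * x 0 + x 1 * x 1 + x 2 * x 2 + x 3 * x 3) + b * (x 0 * x 1 + x 1 * x 2 + x 2 * x 3) +
    c * (x 0 * x 2 + x 1 * x 3 + x 0 * x 3)

theorem f_sing : ∀ a b c, ∃ x, x ≠ 0 ∧ f a b c x = 0 := by decide +kernel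

theorem f_cases : ∀ b c, f 0 b c ![1, 1, 1, 1] = 0 →
    (∀ x, f 0 b c x = 0) ∨ ∀ x, f 0 b c x = q0 x := by decide +kernel

variable {V : Type*} [AddCommGroup V] [Module (ZMod 2) V]

/-- coordinates with respect to `u, Tu, T²u, T³u` -/
def L (T : V ≃ₗ[ZMod 2] V) (u : V) : (Fin 4 → ZMod 2) →ₗ[ZMod 2] V :=
  Fintype.linearCombination (ZMod 2) ![u, T u, T (T u), T (T (T u))]

theorem L_apply (T : V ≃ₗ[ZMod 2] V) (u : V) (x : Fin 4 → ZMod 2) :
    L T u x = x 0 • u + x 1 • T u + x 2 • T (T u) + x 3 • T (T (T u)) := by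
  simp [L, Fintype.linearCombination_apply, Fin.sum_univ_four]

theorem L_M {T : V ≃ₗ[ZMod 2] V} {u : V} (hN : T (T (T (T u))) = u + T u + T (T u) + T (T (T u)))
    (x : Fin 4 → ZMod 2) : L T u (M x) = T (L T u x) := by
  simp only [L_apply, M, map_add, map_smul, hN]
  simp only [Matrix.cons_val_zero, Matrix.cons_val_one, Matrix.cons_val, add_smul, smul_add]
  abel

theorem L_bijective (hV : Nat.card V = 16) {T : V ≃ₗ[ZMod 2] V} {u : V} (hu : u ≠ 0)
    (hN : T (T (T (T u))) = u + T u + T (T u) + T (T (T u))) : Function.Bijective (L T u) := by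
  have : Finite V := Nat.finite_of_card_ne_zero (by omega)
  refine Function.Injective.bijective_of_nat_card_le ?_ (by simp [hV])
  rw [injective_iff_map_eq_zero]
  intro x hx
  by_contra h
  obtain ⟨d, hd⟩ := M_gen x h
  have := congrArg (L T u) hd
  simp only [map_add, map_smul, L_M hN, hx, map_zero, smul_zero, add_zero] at this
  simp [L_apply] at this
  exact hu this.symm

theorem q_L {q : QuadraticForm (ZMod 2) V} {T : V ≃ₗ[ZMod 2] V} (hT : ∀ v, q (T v) = q v)
    (h5 : ∀ v, T (T (T (T (T v)))) = v) (u : V) (x : Fin 4 → ZMod 2) :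
    q (L T u x) = f (q u) (polar q u (T u)) (polar q u (T (T u))) x := by
  have hp : ∀ a b, polar q (T a) (T b) = polar q a b := by
    intro a b
    simp only [polar, ← map_add, hT]
  have h3 : polar q u (T (T (T u))) = polar q u (T (T u)) := by
    rw [← hp, ← hp, h5, polar_comm]
  simp only [L_apply, QuadraticMap.map_add q, polar_add_left, polar_smul_left, polar_smul_right,
    QuadraticMap.map_smul, hT, hp, h3, f, smul_eq_mul]
  ring

theorem exists_model (hV : Nat.card V = 16) {q : QuadraticForm (ZMod 2) V}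
    (hnd : ∀ v, (∀ w, polar q v w = 0) → v = 0) {T : V ≃ₗ[ZMod 2] V} (hT : ∀ v, q (T v) = q v)
    (h5 : ∀ v, T (T (T (T (T v)))) = v) (h1 : T ≠ 1) :
    ∃ e : (Fin 4 → ZMod 2) ≃ₗ[ZMod 2] V, ∀ x, q (e x) = q0 x := by
  obtain ⟨v, hv⟩ : ∃ v, T v ≠ v := by
    by_contra! h
    exact h1 (LinearEquiv.ext h)
  have hu : v + T v ≠ 0 := fun h => hv (add_eq_zero_zmod2.1 h).symm
  have hN : T (T (T (T (v + T v)))) =
      (v + T v) + T (v + T v) + T (T (v + T v)) + T (T (T (v + T v))) := by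
    simp only [map_add, h5]
    have h2 := add_self_zmod2 (T v)
    have h3 := add_self_zmod2 (T (T v))
    have h4 := add_self_zmod2 (T (T (T v)))
    linear_combination (norm := module) -h2 - h3 - h4
  set u := v + T v
  have hb := L_bijective hV hu hN
  obtain ⟨x, hx, hx0⟩ := f_sing (q u) (polar q u (T u)) (polar q u (T (T u)))
  rw [← q_L hT h5] at hx0
  have hw : L T u x ≠ 0 := fun h => hx (hb.1 (by rw [h, map_zero]))
  have hNw : T (T (T (T (L T u x)))) =
      L T u x + T (L T u x) + T (T (L T u x)) + T (T (T (L T u x))) := by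
    have h1 := congrArg T hN
    have h2 := congrArg T h1
    have h3 := congrArg T h2
    simp only [map_add] at h1 h2 h3
    simp only [L_apply, map_add, map_smul]
    linear_combination (norm := module) x 0 • hN + x 1 • h1 + x 2 • h2 + x 3 • h3
  set w := L T u x
  have hb' := L_bijective hV hw hNw
  have hq := q_L hT h5 w
  rw [hx0] at hq
  rcases f_cases (polar q w (T w)) (polar q w (T (T w))) (by
    rw [← hq, L_apply]
    simp only [Matrix.cons_val_zero, Matrix.cons_val_one, Matrix.cons_val, one_smul]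
    rw [← hNw, hT, hT, hT, hT, hx0]) with h | h
  · refine absurd (hnd w fun y => ?_) hw
    have h0 : ∀ y, q y = 0 := fun y => by
      obtain ⟨c, rfl⟩ := hb'.2 y
      rw [hq, h]
    simp [polar, h0]
  · exact ⟨LinearEquiv.ofBijective _ hb', fun y => by rw [← h, ← hq]; rfl⟩

/-- Isometries of the model permute the singular points. -/
theorem exists_perm {Γ : Type*} [Group Γ]
    (ρ : Γ →* ((Fin 4 → ZMod 2) ≃ₗ[ZMod 2] (Fin 4 → ZMod 2))) (hρ : ∀ g x, q0 (ρ g x) = q0 x) :
    ∃ φ : Γ →* Perm (Fin 5), ∀ g x, ρ g x = A (φ g) x := by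
  have h1 : ∀ g i, ∃ j, ρ g (s i) = s j := fun g i => by
    have := (sing_iff (s i)).2 ⟨i, rfl⟩
    exact (sing_iff _).1 ⟨by rw [hρ, this.1], by simpa using this.2⟩
  choose F hF using h1
  have hmul : ∀ g g' i, F (g * g') i = F g (F g' i) := fun g g' i =>
    s_injective (by rw [← hF, ← hF, ← hF, map_mul]; rfl)
  have hone : ∀ i, F 1 i = i := fun i => s_injective (by rw [← hF, map_one]; rfl)
  refine ⟨MonoidHom.mk' (fun g => ⟨F g, F g⁻¹, fun i => by rw [← hmul]; simp [hone],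
    fun i => by rw [← hmul]; simp [hone]⟩) (fun g g' => Equiv.ext fun i => hmul g g' i),
    fun g x => ?_⟩
  conv_lhs => rw [← A_one x]
  simp only [A, map_add, map_smul, Perm.one_apply, hF]
  rfl

end CfsgLib.InvChar.HJ
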