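import Mathlib
import Cfsg.Agent.Lib.LargeExtra.Setting
import Cfsg.Agent.Lib.InvChar.HJModel
import Cfsg.Agent.Lib.InvChar.A5Count

/-!
The involutions of `C(z) = Q : A₅`, `Q` extraspecial of order 32.
-/

set_option autoImplicit false
set_option linter.unusedSectionVars false

namespace CfsgLib.InvChar.HJ

open Equiv Subgroup CfsgLib.ExtraTwo CfsgLib.LargeExtra

theorem card_fiber {α β : Type*} [Finite α] [Finite β] (p : β → Prop) (R : α → β → Prop) {m : ℕ}
    (h : ∀ b, p b → Nat.card {a // R a b} = m) :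
    Nat.card {x : α × β // p x.2 ∧ R x.1 x.2} = Nat.card {b // p b} * m := by
  have e : {x : α × β // p x.2 ∧ R x.1 x.2} ≃ Σ b : {b // p b}, {a // R a b} :=
    ⟨fun x => ⟨⟨x.1.2, x.2.1⟩, ⟨x.1.1, x.2.2⟩⟩, fun y => ⟨(y.2.1, y.1.1), y.1.2, y.2.2⟩,
      fun _ => rfl, fun _ => rfl⟩
  have := Fintype.ofFinite {b // p b}
  rw [Nat.card_congr e, Nat.card_sigma, Finset.sum_congr rfl fun b _ => h b.1 b.2]
  simp

variable {G : Type*} [Group G] [Finite G] {Q K : Subgroup G} {z : G}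

/-- Coordinates on `Q / ⟨z⟩` and the action of `C(z)` on the five singular points. -/
structure Model (Q : Subgroup G) (z : G) (q : QuadraticForm (ZMod 2) (Fin 4 → ZMod 2))
    (π : G → Fin 4 → ZMod 2) (φ : centralizer ({z} : Set G) →* Perm (Fin 5)) : Prop where
  pre : Pre Q z
  coord : Coord Q z q π
  q_eq : ∀ x, q x = q0 x
  act : ∀ g : centralizer ({z} : Set G), ∀ x ∈ Q, π (g * x * (g : G)⁻¹) = A (φ g) (π x)
  ker : ∀ g, φ g = 1 ↔ (g : G) ∈ Q
  sign : ∀ g, Perm.sign (φ g) = 1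

theorem exists_Model (h : Pre Q z) (hQ : Nat.card Q = 32) (e : K ≃* alternatingGroup (Fin 5))
    (hKC : K ⊔ Q = centralizer {z}) (hKQ : K ⊓ Q = ⊥) : ∃ q π φ, Model Q z q π φ := by
  obtain ⟨n, q, π, c⟩ := h.es.exists_coord
  obtain ⟨ρ, -, hρ2, hρ3⟩ := h.exists_act c
  have hK : K ≤ centralizer {z} := hKC ▸ le_sup_left
  let a : alternatingGroup (Fin 5) := ⟨finRotate 5, Perm.mem_alternatingGroup.2 (by decide)⟩
  have ha5 : a * (a * (a * (a * a))) = 1 := Subtype.ext (by decide)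
  have ha1 : a ≠ 1 := fun h => absurd (congrArg Subtype.val h) (by decide)
  let σ : centralizer ({z} : Set G) := inclusion hK (e.symm a)
  have hσ5 : σ * (σ * (σ * (σ * σ))) = 1 := by
    simp only [σ, ← map_mul, ha5, map_one]
  have hσ1 : ρ σ ≠ 1 := by
    rw [Ne, hρ3]
    intro hs
    have : ((e.symm a : K) : G) ∈ K ⊓ Q := ⟨(e.symm a).2, hs⟩
    rw [hKQ, mem_bot, OneMemClass.coe_eq_one, MulEquiv.map_eq_one_iff] at this
    exact ha1 this
  obtain ⟨E, hE⟩ := exists_model (by have := c.card_eq; omega) (fun v hv => c.eq_zero_of_polar hv)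
    (hρ2 σ) (fun v => by
      have := congrArg (fun g => ρ g v) hσ5
      simpa using this) hσ1
  have c' : Coord Q z (q.comp E.toLinearMap) (fun x => E.symm (π x)) :=
    c.congr E.symm fun v => by simp
  obtain ⟨ρ', h1, h2, h3⟩ := h.exists_act c'
  obtain ⟨φ, hφ⟩ := exists_perm ρ' fun g x => by
    rw [← hE, ← hE]; exact h2 g x
  have hker : ∀ g, φ g = 1 ↔ (g : G) ∈ Q := by
    intro g
    rw [← h3]
    refine ⟨fun hg => LinearEquiv.ext fun x => by rw [hφ, hg, A_one]; rfl, fun hg => ?_⟩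
    refine Equiv.ext fun i => ?_
    have key : ∀ τ : Perm (Fin 5), (∀ x, A τ x = x) → ∀ i, τ i = i := by decide +kernel
    exact key _ (fun x => by rw [← hφ, hg]; rfl) i
  refine ⟨_, _, φ, h, c', hE, fun g x hx => by rw [← hφ, h1 g x hx], hker, fun g => ?_⟩
  have : centralizer ({z} : Set G) ≤ (Perm.sign.comp φ).ker.map (centralizer ({z} : Set G)).subtype := by
    refine hKC.ge.trans (sup_le (fun k hk => ⟨⟨k, hK hk⟩, ?_, rfl⟩)
      (fun x hx => ⟨⟨x, h.le_cent hx⟩, ?_, rfl⟩))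
    · exact A5.hom_eq_one e ((Perm.sign.comp φ).comp (inclusion hK)) ⟨k, hk⟩
    · change Perm.sign (φ _) = 1
      rw [(hker _).2 hx, map_one]
  obtain ⟨g', hg', e'⟩ := this g.2
  rw [← Subtype.ext e']
  exact hg'

namespace Model

variable {q : QuadraticForm (ZMod 2) (Fin 4 → ZMod 2)} {π : G → Fin 4 → ZMod 2}
  {φ : centralizer ({z} : Set G) →* Perm (Fin 5)}

theorem props (m : Model Q z q π φ) {v : centralizer ({z} : Set G)} (hv : (v : G) * v = 1)
    (hvQ : (v : G) ∉ Q) : φ v * φ v = 1 ∧ φ v ≠ 1 ∧ Perm.sign (φ v) = 1 :=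
  ⟨by rw [← map_mul, show v * v = 1 from Subtype.ext hv, map_one], fun h => hvQ ((m.ker v).1 h),
    m.sign v⟩

/-- An involution outside `Q` inverts every element of `Q` that it fixes modulo `z`. -/
theorem inverts (m : Model Q z q π φ) {v : centralizer ({z} : Set G)} (hv : (v : G) * v = 1)
    (hvQ : (v : G) ∉ Q) {x : G} (hx : x ∈ Q) (hf : A (φ v) (π x) = π x) :
    v * x * (v : G)⁻¹ = x⁻¹ := by
  obtain ⟨h1, h2, h3⟩ := m.props hv hvQ
  obtain ⟨y', hy'⟩ := key1 _ h1 h2 h3 _ hf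
  obtain ⟨y, hy, rfl⟩ := m.coord.surj y'
  have hvz := mem_cent.1 v.2
  have hvy := m.pre.norm v hvz y hy
  have hvi : (v : G)⁻¹ = v := inv_eq_of_mul_eq_one_right hv
  have hc : (v : G) * (y⁻¹ * (v * y * (v : G)⁻¹)) * (v : G)⁻¹ = (y⁻¹ * (v * y * (v : G)⁻¹))⁻¹ := by
    calc (v : G) * (y⁻¹ * (v * y * (v : G)⁻¹)) * (v : G)⁻¹
        = v * y⁻¹ * v * y * ((v : G) * v)⁻¹ := by group
      _ = v * y⁻¹ * (v : G)⁻¹ * y := by rw [hv, hvi]; group
      _ = _ := by group
  rw [← m.act v y hy, ← m.coord.map_inv hy, ← m.coord.map_mul _ (Q.inv_mem hy) _ hvy, eq_comm,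
    m.coord.eq_iff (Q.mul_mem (Q.inv_mem hy) hvy) hx] at hy'
  rcases hy' with rfl | rfl
  · exact hc
  · set w := y⁻¹ * (v * y * (v : G)⁻¹)
    have hw : w ∈ Q := Q.mul_mem (Q.inv_mem hy) hvy
    calc (v : G) * (w * z) * (v : G)⁻¹ = (v * w * (v : G)⁻¹) * (v * z * (v : G)⁻¹) := by group
      _ = w⁻¹ * z := by rw [hc, conj_eq_of_comm hvz]
      _ = (w * z)⁻¹ := by
        rw [mul_inv_rev w z, m.pre.es.inv_eq, m.pre.es.comm_z _ (Q.inv_mem hw)]

theorem card_fix (m : Model Q z q π φ) {v : centralizer ({z} : Set G)} (hv : (v : G) * v = 1)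
    (hvQ : (v : G) ∉ Q) : Nat.card {x : G // x ∈ Q ∧ x * v * (x * v) = 1} = 8 := by
  obtain ⟨h1, h2, h3⟩ := m.props hv hvQ
  have h4 := m.coord.card_filter (fun w => A (φ v) w = w)
  rw [Nat.subtype_card _ (fun w => by simp : ∀ w, w ∈ Finset.univ.filter
    (fun w => A (φ v) w = w) ↔ _), key2 _ h1 h2 h3] at h4
  refine Eq.trans ?_ h4
  refine Nat.card_congr (Equiv.subtypeEquivRight fun x => and_congr_right fun hx => ?_)
  have hvi : (v : G)⁻¹ = v := inv_eq_of_mul_eq_one_right hv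
  constructor
  · intro h
    have : (v : G) * x * (v : G)⁻¹ = x⁻¹ := by
      rw [hvi, eq_inv_iff_mul_eq_one, ← mul_right_inj x]
      calc x * (v * x * v * x) = x * v * (x * v) * x := by group
        _ = _ := by rw [h]; group
    rw [← m.act v x hx, this, m.coord.map_inv hx]
  · intro h
    have := m.inverts hv hvQ hx h
    rw [hvi] at this
    calc x * v * (x * v) = x * (v * x * v) := by group
      _ = 1 := by rw [this]; group

theorem card_move (m : Model Q z q π φ) {v : centralizer ({z} : Set G)} (hv : (v : G) * v = 1)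
    (hvQ : (v : G) ∉ Q) : Nat.card {x : G // x ∈ Q ∧ x * x = 1 ∧ x * v ≠ v * x} = 8 := by
  obtain ⟨h1, h2, h3⟩ := m.props hv hvQ
  have h4 := m.coord.card_filter (fun w => q0 w = 0 ∧ A (φ v) w ≠ w)
  rw [Nat.subtype_card _ (fun w => by simp : ∀ w, w ∈ Finset.univ.filter
    (fun w => q0 w = 0 ∧ A (φ v) w ≠ w) ↔ _), key3 _ h1 h2 h3] at h4
  refine Eq.trans ?_ h4
  refine Nat.card_congr (Equiv.subtypeEquivRight fun x => and_congr_right fun hx => ?_)
  rw [← m.q_eq, m.coord.sq x hx]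
  refine and_congr_right fun hx2 => not_congr ⟨fun h => ?_, fun h => ?_⟩
  · rw [← m.act v x hx, conj_eq_of_comm h.symm]
  · have := m.inverts hv hvQ hx h
    rw [inv_eq_of_mul_eq_one_right hx2] at this
    exact (comm_of_conj_eq this).symm

/-- An involution of `Q` and an involution outside `Q` that do not commute have `(xv)⁴ = z` or
`(xv)² = z`. -/
theorem pow_four (m : Model Q z q π φ) {v : centralizer ({z} : Set G)} (hv : (v : G) * v = 1)
    (hvQ : (v : G) ∉ Q) {x : G} (hx : x ∈ Q) (hx2 : x * x = 1) (h : x * v ≠ v * x) :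
    (x * v) ^ 4 = z := by
  have hvi : (v : G)⁻¹ = v := inv_eq_of_mul_eq_one_right hv
  have hvx := m.pre.norm v (mem_cent.1 v.2) x hx
  have hne : π x ≠ π (v * x * (v : G)⁻¹) := fun e => h (by
    have := m.inverts hv hvQ hx (by rw [← m.act v x hx, e.symm])
    rw [inv_eq_of_mul_eq_one_right hx2] at this
    exact (comm_of_conj_eq this).symm)
  have hq1 : q0 (π x) = 0 := by rw [← m.q_eq, m.coord.sq x hx, hx2]
  have hq2 : q0 (π (v * x * (v : G)⁻¹)) = 0 := by
    rw [← m.q_eq, m.coord.sq _ hvx]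
    calc (v : G) * x * (v : G)⁻¹ * (v * x * (v : G)⁻¹) = v * (x * x) * (v : G)⁻¹ := by group
      _ = 1 := by rw [hx2]; group
  have hA0 : A (φ v) 0 = 0 := by simp [A]
  have hx0 : π x ≠ 0 := fun e => hne (by rw [m.act v x hx, e, hA0])
  have hx1 : π (v * x * (v : G)⁻¹) ≠ 0 := fun e => by
    have := m.act v _ hvx
    rw [e, hA0, show (v : G) * (v * x * (v : G)⁻¹) * (v : G)⁻¹ = (v * v) * x * ((v : G) * v)⁻¹ by
      group, hv] at this
    exact hx0 (by simpa using this)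
  have := q0_add _ _ ⟨hq1, hq2, hx0, hx1, hne⟩
  rw [← m.coord.map_mul _ hx _ hvx, ← m.q_eq, m.coord.sq_one (Q.mul_mem hx hvx), hvi] at this
  refine Eq.trans ?_ this
  rw [pow_succ, pow_succ, pow_two]
  group

theorem card_outer (m : Model Q z q π φ) (e : K ≃* alternatingGroup (Fin 5))
    (hKC : K ⊔ Q = centralizer {z}) (hKQ : K ⊓ Q = ⊥) :
    Nat.card {v : G // v * z = z * v ∧ v * v = 1 ∧ v ∉ Q} = 120 := by
  have hK : K ≤ centralizer {z} := hKC ▸ le_sup_left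
  have hdisj : ∀ k : K, (k : G) ∈ Q → k = 1 := fun k hk => by
    have : (k : G) ∈ K ⊓ Q := ⟨k.2, hk⟩
    rwa [hKQ, mem_bot, OneMemClass.coe_eq_one] at this
  have h1 := card_fiber (fun k : K => k * k = 1 ∧ k ≠ 1)
    (fun (x : G) (k : K) => x ∈ Q ∧ x * k * (x * k) = 1) (m := 8) fun k hk =>
      m.card_fix (v := ⟨k, hK k.2⟩) (congrArg Subtype.val hk.1) fun h => hk.2 (hdisj k h)
  rw [A5.card_inv' e] at h1
  refine Eq.trans (Eq.symm ?_) h1
  refine Nat.card_congr (Equiv.ofBijective (fun p => ⟨p.1.1 * p.1.2, ?_⟩) ⟨?_, ?_⟩)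
  · obtain ⟨⟨x, k⟩, ⟨h2, h3⟩, h4, h5⟩ := p
    refine ⟨mem_cent.1 (mul_mem (m.pre.le_cent h4) (hK k.2)), h5, fun h => h3 (hdisj k ?_)⟩
    simpa using Q.mul_mem (Q.inv_mem h4) h
  · rintro ⟨⟨x, k⟩, hk, hx, hxk⟩ ⟨⟨y, l⟩, hl, hy, hyl⟩ h
    have h : x * k = y * l := congrArg Subtype.val h
    have h2 : k * l⁻¹ = 1 := hdisj _ (by
      have : ((k * l⁻¹ : K) : G) = x⁻¹ * y := by
        push_cast
        calc (k : G) * (l : G)⁻¹ = x⁻¹ * (x * k) * (l : G)⁻¹ := by group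
          _ = _ := by rw [h]; group
      rw [this]
      exact Q.mul_mem (Q.inv_mem hx) hy)
    have h3 : k = l := mul_inv_eq_one.1 h2
    subst h3
    exact Subtype.ext (Prod.ext (mul_right_cancel h) rfl)
  · rintro ⟨v, hv1, hv2, hv3⟩
    have hv : v ∈ Q ⊔ K := by rw [sup_comm, hKC]; exact mem_cent.2 hv1
    have hn : K ≤ normalizer (Q : Set G) := m.pre.normalizer_eq ▸ hK
    rw [← SetLike.mem_coe, coe_mul_of_right_le_normalizer_left _ _ hn] at hv
    obtain ⟨x, hx, k, hk, rfl⟩ := hv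
    refine ⟨⟨(x, ⟨k, hk⟩), ⟨hdisj _ ?_, fun h => hv3 ?_⟩, hx, hv2⟩, rfl⟩
    · have h2 := m.pre.norm k (mem_cent.1 (hK hk)) x hx
      have : k * k = (x * (k * x * k⁻¹))⁻¹ := by
        rw [eq_inv_iff_mul_eq_one, ← mul_left_inj (k * k), ← mul_right_inj (k * k)⁻¹]
        calc (k * k)⁻¹ * (k * k * (x * (k * x * k⁻¹)) * (k * k)) = x * k * (x * k) := by group
          _ = _ := by rw [show x * k * (x * k) = 1 from hv2]; group
      change k * k ∈ Q
      rw [this]
      exact Q.inv_mem (Q.mul_mem hx h2)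
    · have : k = 1 := congrArg Subtype.val h
      simpa [this] using hx

end Model

end CfsgLib.InvChar.HJ
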