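import Mathlib
import Cfsg.Agent.Lib.Char.Ortho
import Cfsg.Agent.Lib.Char.Kernel
import Cfsg.Agent.Lib.Char.Integral
import Cfsg.Agent.Lib.Block.ConjSum
import Cfsg.Agent.Lib.Invol.SylowElem
import Cfsg.Agent.Lib.Invol.Count
import Cfsg.Agent.Lib.ZStar.Block
import Cfsg.Agent.Lib.ZStar.QuatArith
import Cfsg.Agent.Lib.TwoGrp.Pres

/-!
If `C(x) = V × N` with `V` a four-group whose involutions are conjugate and `N` of odd order, then
`C(x)` has index less than 16 (principal 2-block).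
-/

set_option autoImplicit false

namespace CfsgLib.InvChar.Klein

open Finset Cfsg CfsgLib.Char CfsgLib.Invol CfsgLib.ZStar
open scoped Classical ComplexConjugate

theorem arith_aux {x y z : ℤ} (hx : 4 ∣ x - 1) (hy : 4 ∣ y - 1) (hz : 4 ∣ z - 1)
    (h : 1 + x + y + z = 0) (hz0 : 0 < z) : (1 / 2 : ℚ) < 1 + 1 / x + 1 / y + 1 / z := by
  have key : ∀ w : ℤ, 4 ∣ w - 1 → (-1 / 3 : ℚ) ≤ 1 / w ∧ (w ≠ -3 → (-1 / 7 : ℚ) ≤ 1 / w) := by
    intro w hw
    rcases lt_or_ge 0 w with h1 | h1
    · have : (0 : ℚ) < 1 / w := by positivity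
      exact ⟨by linarith, fun _ => by linarith⟩
    · constructor
      · have : (w : ℚ) ≤ -3 := by exact_mod_cast (by omega : w ≤ -3)
        rw [le_div_iff_of_neg (by linarith)]
        linarith
      · intro h3
        have : (w : ℚ) ≤ -7 := by exact_mod_cast (by omega : w ≤ -7)
        rw [le_div_iff_of_neg (by linarith)]
        linarith
  have hz' : (0 : ℚ) < 1 / z := by positivity
  by_cases h1 : x = -3
  · by_cases h2 : y = -3
    · have h3 : z = 5 := by omega
      subst h1 h2 h3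
      norm_num
    · linarith [(key x hx).1, (key y hy).2 h2]
  · linarith [(key x hx).2 h1, (key y hy).1]

theorem arith {x y z : ℤ} (hx : 4 ∣ x - 1) (hy : 4 ∣ y - 1) (hz : 4 ∣ z - 1)
    (h : 1 + x + y + z = 0) : (1 / 2 : ℚ) < 1 + 1 / x + 1 / y + 1 / z := by
  rcases lt_or_ge 0 z with h1 | h1
  · exact arith_aux hx hy hz h h1
  rcases lt_or_ge 0 y with h2 | h2
  · linarith [arith_aux hx hz hy (by linarith) h2]
  · linarith [arith_aux hy hz hx (by linarith) (by omega)]

theorem sum_bound {ι : Type*} [Fintype ι] (a d : ι → ℤ) (i₀ : ι) (ha₀ : a i₀ = 1)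
    (hd₀ : d i₀ = 1) (hcong : ∀ i, a i ≠ 0 → 4 ∣ d i - a i) (e0 : ∑ i, a i ^ 2 = 4)
    (e1 : ∑ i, a i * d i = 0) : (1 / 2 : ℚ) < ∑ i, (a i : ℚ) ^ 3 / d i := by
  have h3 : ∑ i ∈ univ.erase i₀, a i ^ 2 = 3 := by
    rw [← add_sum_erase _ _ (mem_univ i₀), ha₀] at e0
    linarith
  have hle : ∀ i ∈ univ.erase i₀, a i ≠ 0 → a i = 1 ∨ a i = -1 := by
    intro i hi h0
    have h1 : a i ^ 2 ≤ 3 := h3 ▸ single_le_sum (f := fun i => a i ^ 2) (fun j _ => sq_nonneg _) hi
    have h2 : a i ≤ 1 := by nlinarith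
    have h4 : -1 ≤ a i := by nlinarith
    omega
  set U := (univ.erase i₀).filter (fun i => a i ≠ 0) with hUdef
  have hU1 : ∀ i ∈ U, a i = 1 ∨ a i = -1 := fun i hi =>
    hle i (mem_filter.1 hi).1 (mem_filter.1 hi).2
  have hcard : U.card = 3 := by
    rw [← sum_filter_of_ne (p := fun i => a i ≠ 0) (fun i _ h h0 => h (by rw [h0]; simp)),
      ← hUdef, sum_congr rfl (g := fun _ => 1)
        (fun i hi => by rcases hU1 i hi with h | h <;> simp [h])] at h3
    simpa using (by exact_mod_cast (by simpa using h3 : (U.card : ℤ) = 3) : U.card = 3)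
  obtain ⟨i₁, i₂, i₃, h12, h13, h23, hU⟩ := card_eq_three.1 hcard
  have m1 : i₁ ∈ U := by rw [hU]; simp
  have m2 : i₂ ∈ U := by rw [hU]; simp
  have m3 : i₃ ∈ U := by rw [hU]; simp
  rw [sum_eq_three_terms h12 h13 h23 hU _ (fun i h => by simp [h])] at e1 ⊢
  have key : ∀ i ∈ U, 4 ∣ a i * d i - 1 ∧ (a i : ℚ) ^ 3 / d i = 1 / (a i * d i : ℤ) := by
    intro i hi
    have := hcong i (mem_filter.1 hi).2
    rcases hU1 i hi with h | h <;> rw [h] at this ⊢
    · exact ⟨by omega, by simp⟩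
    · exact ⟨by omega, by push_cast; rw [neg_one_mul, div_neg]; norm_num [neg_div]⟩
  rw [(key _ m1).2, (key _ m2).2, (key _ m3).2, ha₀, hd₀]
  rw [ha₀, hd₀] at e1
  have := arith (key _ m1).1 (key _ m2).1 (key _ m3).1 (by linarith)
  simpa using this

variable {G : Type*} [Group G] [Finite G]

theorem char_values {V : Subgroup G} (hK : IsKleinFour V) {x : G} (hx : orderOf x = 2)
    (hfus : ∀ a ∈ V, a ≠ 1 → IsConj x a) {χ : G → ℂ} (hχ : IsCharacter G χ) :
    ∃ d δ : ℤ, χ 1 = d ∧ χ x = δ ∧ 4 ∣ d - δ := by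
  have := Fintype.ofFinite V
  have hcl := isClassFunction_of_isCharacter hχ
  obtain ⟨d, hd⟩ := exists_char_one_eq_nat hχ
  obtain ⟨δ, hδ⟩ := exists_int_of_pow_eq (isGenChar_of_isCharacter hχ) x (fun k hk => by
    have h2 : 2 ∣ Nat.card G := hx ▸ orderOf_dvd_natCard x
    obtain ⟨j, rfl⟩ : Odd k := Nat.coprime_two_right.1 (hk.coprime_dvd_right h2)
    rw [pow_succ, pow_mul, sq_of_orderOf_two hx, one_pow, one_mul])
  obtain ⟨m, hm⟩ := exists_classInner_eq_nat (isCharacter_comp V.subtype hχ) isCharacter_one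
  have hval : ∀ q : V, χ (V.subtype q) = δ + (if q = 1 then χ 1 - δ else 0) := by
    intro q
    by_cases hq : q = 1
    · simp [hq]
    · rw [if_neg hq, add_zero, ← hδ]
      exact (classFun_eq_of_isConj hcl (hfus q q.2 fun h => hq (Subtype.ext h))).symm
  rw [classInner_one_right, sum_congr rfl (fun q _ => hval q), sum_add_distrib,
    sum_ite_eq', sum_const, card_univ, ← Nat.card_eq_fintype_card, hK.card_four] at hm
  simp only [mem_univ, if_true, hd, nsmul_eq_mul] at hm
  have h5 : (d : ℂ) - δ = 4 * (m - δ) := by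
    push_cast at hm
    linear_combination (4 : ℂ) * hm
  exact ⟨d, δ, by rw [hd]; simp, hδ, m - δ, by exact_mod_cast h5⟩

theorem index_lt {V N : Subgroup G} (hK : IsKleinFour V) {x : G} (hx : orderOf x = 2) (hxV : x ∈ V)
    (hfus : ∀ a ∈ V, a ≠ 1 → IsConj x a) (hV : ∀ a : G, orderOf a = 2 → Commute a x → a ∈ V)
    (hNC : N ≤ Subgroup.centralizer {x}) (hNodd : Odd (Nat.card N))
    (hNall : ∀ g ∈ Subgroup.centralizer {x}, Odd (orderOf g) → g ∈ N)
    (hNcard : Nat.card (Subgroup.centralizer ({x} : Set G)) = 4 * Nat.card N) :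
    (Subgroup.centralizer ({x} : Set G)).index < 16 := by
  have := Fintype.ofFinite G
  obtain ⟨B, h2⟩ := exists_valuation 2 Nat.prime_two
  set v := B.valuation
  have h2' : v 2 < 1 := by simpa using h2
  have hxx := mul_self_of_orderOf_two hx
  have hx1 := ne_one_of_orderOf_two hx
  set C := Subgroup.centralizer ({x} : Set G) with hC
  have hxC : x ∈ C := by rw [hC, Subgroup.mem_centralizer_singleton_iff]
  have hw : ∀ (j : ℤ) (g : G), Commute g (x ^ (2 * j + 1)) → g ∈ C := by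
    intro j g hg
    rw [zpow_add, zpow_mul, zpow_two, hxx, one_zpow, one_mul, zpow_one] at hg
    exact Subgroup.mem_centralizer_singleton_iff.2 hg.eq
  have hCN : ∀ h ∈ C, ∀ y ∈ N, h⁻¹ * y * h ∈ N := by
    intro h hh y hy
    refine hNall _ (C.mul_mem (C.mul_mem (C.inv_mem hh) (hNC hy)) hh) ?_
    have := orderOf_conj h⁻¹ y
    rw [inv_inv] at this
    rw [this]; exact odd_orderOf_of_mem hNodd hy
  have hord : ∀ n ∈ N, orderOf (x * n) = 2 * orderOf n := by
    intro n hn
    have hc : Commute x n := (Subgroup.mem_centralizer_singleton_iff.1 (hNC hn)).symm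
    rw [hc.orderOf_mul_eq_mul_orderOf_of_coprime, hx]
    rw [hx]
    exact Nat.coprime_two_left.2 (odd_orderOf_of_mem hNodd hn)
  choose d δ hd hδ hcong using fun χ : IrrCharacter G =>
    char_values hK hx hfus (irr_isCharacter χ)
  let A : IrrCharacter G → ℤ := fun χ => if InB0 v (χ : G → ℂ) then δ χ else 0
  have hA : ∀ χ : IrrCharacter G,
      (A χ : ℂ) = (Nat.card N : ℂ)⁻¹ * ∑ n : N, (χ : G → ℂ) (x * n) := by
    intro χ
    by_cases hB : InB0 v (χ : G → ℂ)
    · rw [← char_eq_avg_of_inB0 h2' χ.2 hB hNodd hNC hCN hxC hw, hδ]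
      simp [A, hB]
    · rw [sum_eq_zero_of_not_inB0 h2' χ.2 hB hNodd hNC hNall hxC hw]
      simp [A, hB]
  have hsum : ∀ h : G, ∑ χ : IrrCharacter G, (A χ : ℂ) * conj ((χ : G → ℂ) h) =
      (Nat.card N : ℂ)⁻¹ * ∑ n : N, ∑ χ : IrrCharacter G,
        (χ : G → ℂ) (x * n) * conj ((χ : G → ℂ) h) := by
    intro h
    simp only [hA, mul_assoc, ← mul_sum, sum_mul]
    rw [sum_comm]
  have hzero : ∀ h : G, (∀ n ∈ N, ¬ IsConj (x * n) h) →
      ∑ χ : IrrCharacter G, (A χ : ℂ) * conj ((χ : G → ℂ) h) = 0 := by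
    intro h hh
    rw [hsum, sum_eq_zero, mul_zero]
    exact fun n _ => column_orthogonality_of_not_isConj (hh n n.2)
  have hfour : ∀ h : G, IsConj x h →
      ∑ χ : IrrCharacter G, (A χ : ℂ) * conj ((χ : G → ℂ) h) = 4 := by
    intro h hh
    have h1 := hsum h
    rw [sum_eq_single (1 : N) (fun n _ hn => column_orthogonality_of_not_isConj (fun hc => hn (by
      have h3 := orderOf_eq_of_isConj (hc.trans hh.symm)
      rw [hord n n.2, hx] at h3
      exact Subtype.ext (orderOf_eq_one_iff.1 (by omega))))) (by simp)] at h1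
    simp only [OneMemClass.coe_one, mul_one] at h1
    rw [column_orthogonality_of_isConj hh, ← hC, hNcard, Nat.cast_mul, mul_comm ((4 : ℕ) : ℂ),
      inv_mul_cancel_left₀ natCard_ne_zero] at h1
    exact_mod_cast h1
  have hAδ : ∀ χ, A χ ≠ 0 → A χ = δ χ := by
    intro χ h
    simp only [A] at h ⊢
    split_ifs at h ⊢
    · rfl
    · exact absurd rfl h
  have hAδ' : ∀ χ, (A χ : ℂ) * δ χ = A χ ^ 2 := by
    intro χ
    by_cases h : A χ = 0
    · simp [h]
    · rw [← hAδ χ h, pow_two]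
  have e0 : ∑ χ, A χ ^ 2 = 4 := by
    have h1 := hfour x (IsConj.refl x)
    simp only [hδ, map_intCast, hAδ'] at h1
    exact_mod_cast h1
  have e1 : ∑ χ, A χ * d χ = 0 := by
    have h1 := hzero 1 (fun n hn hc => by
      have h3 := orderOf_eq_of_isConj hc
      rw [hord n hn, orderOf_one] at h3
      omega)
    simp only [hd, map_intCast] at h1
    exact_mod_cast h1
  have hdpos : ∀ χ, 0 < d χ := by
    intro χ
    obtain ⟨n, hn, h⟩ := exists_irr_one_eq_nat χ.2
    rw [hd] at h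
    have : d χ = n := by exact_mod_cast h
    omega
  have hd0 : ∀ χ, (d χ : ℂ) ≠ 0 := fun χ => by exact_mod_cast (hdpos χ).ne'
  obtain ⟨y, hyV, hy1, hyx⟩ : ∃ y ∈ V, y ≠ 1 ∧ x ≠ y := by
    obtain ⟨a, b, ha, hb, ha1, hb1, hab⟩ := CfsgLib.TwoGrp.exists_gens_of_isKleinFour hK
    by_cases h : x = a
    · exact ⟨b, hb, hb1, h ▸ hab⟩
    · exact ⟨a, ha, ha1, h⟩
  have hmem := CfsgLib.TwoGrp.mem_iff_of_isKleinFour hK hxV hyV hx1 hy1 hyx
  have hxy : x * y = y * x := CfsgLib.TwoGrp.comm_of_isKleinFour hK hxV hyV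
  have hxy1 : x * y ≠ 1 := fun h => hyx (by
    rw [← hxx, mul_right_inj] at h; exact h.symm)
  have hyxy : y ≠ x * y := fun h => hx1 (by simpa using h)
  have hval : ∀ g : G, ∑ χ : IrrCharacter G, (A χ : ℂ) * conj ((χ : G → ℂ) (g * x * g⁻¹ * x)) =
      (if g * x * g⁻¹ = y then 4 else 0) + (if g * x * g⁻¹ = x * y then 4 else 0) := by
    intro g
    by_cases h1 : g * x * g⁻¹ = y
    · rw [if_pos h1, if_neg (h1 ▸ hyxy), add_zero, h1, ← hxy]
      exact hfour _ (hfus _ (V.mul_mem hxV hyV) hxy1)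
    by_cases h2 : g * x * g⁻¹ = x * y
    · rw [if_pos h2, if_neg h1, zero_add, h2, hxy, mul_assoc, hxx, mul_one]
      exact hfour _ (hfus _ hyV hy1)
    rw [if_neg h1, if_neg h2, add_zero]
    refine hzero _ fun n hn hc => ?_
    obtain ⟨k, hk⟩ := isConj_iff.1 hc.symm
    have hcn : Commute x n := (Subgroup.mem_centralizer_singleton_iff.1 (hNC hn)).symm
    have ha : orderOf (k * (g * x * g⁻¹) * k⁻¹) = 2 := by rw [orderOf_conj, orderOf_conj, hx]
    have hb : orderOf (k * x * k⁻¹) = 2 := by rw [orderOf_conj, hx]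
    have hab : k * (g * x * g⁻¹) * k⁻¹ * (k * x * k⁻¹) = x * n := by rw [← hk]; group
    set a := k * (g * x * g⁻¹) * k⁻¹ with hadef
    set b := k * x * k⁻¹ with hbdef
    have hpow : (x * n) ^ orderOf n = x := by
      obtain ⟨j, hj⟩ := odd_orderOf_of_mem hNodd hn
      rw [hcn.mul_pow, pow_orderOf_eq_one, mul_one, hj, pow_succ, pow_mul, pow_two, hxx, one_pow,
        one_mul]
    have hax : Commute a x := by
      have := conj_pow_of_inverts (conj_mul_eq_inv (mul_self_of_orderOf_two ha)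
        (mul_self_of_orderOf_two hb)) (orderOf n)
      rw [hab, hpow, inv_of_orderOf_two hx] at this
      exact mul_inv_eq_iff_eq_mul.1 this
    have hbx : Commute b x := by
      have : b = a⁻¹ * (x * n) := by rw [← hab]; group
      rw [this]
      exact hax.inv_left.mul_left ((Commute.refl x).mul_left hcn.symm)
    have hn1 : n = 1 := by
      have h3 : n ∈ V := by
        have := V.mul_mem (V.inv_mem hxV) (V.mul_mem (hV a ha hax) (hV b hb hbx))
        rwa [hab, inv_mul_cancel_left] at this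
      have h4 : n * n = 1 := congrArg Subtype.val (IsKleinFour.mul_self (⟨n, h3⟩ : V))
      by_contra h5
      have := odd_orderOf_of_mem hNodd hn
      rw [orderOf_eq_two h5 h4] at this
      exact absurd this (by decide)
    have hab' : Commute a b := by
      have : b = a⁻¹ * x := by rw [← mul_one x, ← hn1, ← hab]; group
      rw [this]
      exact (Commute.refl a).inv_right.mul_right hax
    have h5 : Commute (g * x * g⁻¹) x := by
      have := hab'.map (MulAut.conj k⁻¹)
      simpa [hadef, hbdef, mul_assoc] using this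
    rcases (hmem _).1 (hV _ (by rw [orderOf_conj, hx]) h5) with h | h | h | h
    · exact hx1 (by simpa using h)
    · rw [h, hxx, hn1] at hk
      exact hx1 (by simpa using hk.symm)
    · exact h1 h
    · exact h2 h
  have hcount : ∀ w, IsConj x w →
      ∑ g : G, (if g * x * g⁻¹ = w then (4 : ℂ) else 0) = 4 * Nat.card C := by
    intro w hw
    rw [← sum_filter, sum_const, ← card_conj_eq_card_centralizer hw,
      Nat.subtype_card (univ.filter fun g => g * x * g⁻¹ = w) (by simp), nsmul_eq_mul, mul_comm]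
  have e3' : (Nat.card G : ℂ) * ∑ χ, (A χ : ℂ) ^ 3 / d χ = 8 * Nat.card C := by
    have h1 := sum_congr rfl fun g (_ : g ∈ univ) => hval g
    rw [sum_add_distrib, hcount y (hfus y hyV hy1),
      hcount _ (hfus _ (V.mul_mem hxV hyV) hxy1), sum_comm] at h1
    rw [show (8 : ℂ) * Nat.card C = 4 * Nat.card C + 4 * Nat.card C by ring, ← h1, mul_sum]
    refine sum_congr rfl (fun χ _ => ?_)
    have h3 := congrArg conj (CfsgLib.Block.irr_sum_conj_mul χ.2 x x)
    rw [hd, hδ] at h3
    simp only [map_mul, map_intCast, map_natCast, map_sum] at h3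
    rw [← mul_sum, ← mul_div_assoc, div_eq_iff (hd0 χ)]
    linear_combination (-(A χ : ℂ)) * h3 - (Nat.card G : ℂ) * (δ χ + A χ) * hAδ' χ
  have e3 : (Nat.card G : ℚ) * ∑ χ, (A χ : ℚ) ^ 3 / d χ = 8 * Nat.card C := by
    exact_mod_cast e3'
  have hA0 : A (irrOne G) = 1 := by
    have h1 : InB0 v ((irrOne G : IrrCharacter G) : G → ℂ) := inB0_one h2'
    have h3 := hδ (irrOne G)
    rw [irrOne_apply] at h3
    simp only [A, h1, if_true]
    exact_mod_cast h3.symm
  have hd1 : d (irrOne G) = 1 := by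
    have h3 := hd (irrOne G)
    rw [irrOne_apply] at h3
    exact_mod_cast h3.symm
  have hb := sum_bound A d (irrOne G) hA0 hd1 (fun χ h => by rw [hAδ χ h]; exact hcong χ) e0 e1
  rw [← C.card_mul_index] at e3
  have hC0 : (0 : ℚ) < Nat.card C := by exact_mod_cast Nat.card_pos
  have h6 : (C.index : ℚ) * ∑ χ, (A χ : ℚ) ^ 3 / d χ = 8 := by
    apply mul_left_cancel₀ hC0.ne'
    push_cast at e3
    linear_combination e3
  have h7 : (0 : ℚ) < C.index := by exact_mod_cast Nat.pos_of_ne_zero Subgroup.index_ne_zero_of_finite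
  have : (C.index : ℚ) < 16 := by nlinarith
  exact_mod_cast this

end CfsgLib.InvChar.Klein
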