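import Cfsg.Agent.Lib.TwoGrp.Pres
import Cfsg.Agent.Lib.Frob.Quaternion

/-! Generators of a non-abelian 2-group with a unique involution. -/

set_option autoImplicit false

namespace CfsgLib.InvChar

open Subgroup

/-- A non-abelian finite 2-group with a unique involution, by generators and relations. -/
theorem exists_quaternion_gens {Q : Type*} [Group Q] [Finite Q] (hQ : IsPGroup 2 Q)
    (hna : ¬ IsMulCommutative Q) (hu : ∃! x : Q, orderOf x = 2) :
    ∃ (k : ℕ) (a b : Q), orderOf a = 4 * 2 ^ k ∧ b * b = a ^ (2 * 2 ^ k) ∧ b * a * b⁻¹ = a⁻¹ ∧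
      b ∉ zpowers a ∧ ∀ g : Q, ∃ i : ℤ, g = a ^ i ∨ g = a ^ i * b := by
  have : Fact (Nat.Prime 2) := ⟨Nat.prime_two⟩
  rcases Frob.cyclic_or_quaternion_of_forall_mem_zpowers hQ (fun x y hx hy => by
    rw [hu.unique hx hy]; exact mem_zpowers y) with h | ⟨-, n, hn, ⟨e⟩⟩
  · exact absurd (inferInstance : IsMulCommutative Q) hna
  · obtain ⟨k, rfl⟩ := Nat.exists_eq_add_of_le' hn
    obtain ⟨a, b, h1, h2, h3, h4, h5⟩ := TwoGrp.exists_gens_of_quaternion (Q := (⊤ : Subgroup Q))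
      (topEquiv.trans e)
    refine ⟨k, a, b, by rw [h1]; ring, by rw [h2]; congr 1; ring, h3, h4, fun g => (h5 g).1 trivial⟩

end CfsgLib.InvChar
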