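import Cfsg.Agent.Lib.SL2.SylowTwo
import Cfsg.Agent.Lib.Classical.SLBasic
import Cfsg.Agent.Lib.Invol.Dihedral
import Cfsg.Agent.Lib.Isol.Order

/-!
# Ambient facts about subgroups isomorphic to `SL₂(q)`, `q` odd, and a parity lemma
-/

namespace CfsgLib.InvChar

open Subgroup

variable {G : Type*} [Group G]

/-- The properties of a subgroup `L ≅ SL₂(q)` (`q` odd) with involution `j` used in fusion
arguments. -/
structure SLF (L : Subgroup G) (j : G) : Prop where
  mem : j ∈ L
  ne_one : j ≠ 1
  uniq : ∀ a ∈ L, a * a = 1 → a = 1 ∨ a = j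
  conj4 : ∀ a ∈ L, ∀ b ∈ L, a * a = j → b * b = j → ∃ c ∈ L, c * a * c⁻¹ = b
  ab : ∀ g ∈ L, ∀ h ∈ L, ∀ k ∈ L, g * g ≠ 1 → Commute h g → Commute k g → Commute h k
  ex4 : ∃ a ∈ L, a * a = j
  le_of_index : ∀ M : Subgroup G, M.index = 2 → L ≤ M

theorem two_ne_zero_of_odd_card {F : Type*} [Field F] [Fintype F] (hF : Odd (Fintype.card F)) :
    (2 : F) ≠ 0 := by
  intro h
  have h1 := FiniteField.cast_card_eq_zero F
  obtain ⟨k, hk⟩ := hF
  rw [hk] at h1
  push_cast at h1
  rw [h] at h1
  simp at h1

theorem slf_of_equiv {F : Type*} [Field F] [Fintype F] (hF : Odd (Fintype.card F))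
    {L : Subgroup G} (e : L ≃* Matrix.SpecialLinearGroup (Fin 2) F) {j : G} (hjL : j ∈ L)
    (hj : orderOf j = 2) : SLF L j := by
  have h2 := two_ne_zero_of_odd_card hF
  have hj1 := Invol.ne_one_of_orderOf_two hj
  have hneg : ∀ g : Matrix.SpecialLinearGroup (Fin 2) F, g ≠ 1 → g * g = 1 → g = -1 := by
    intro g h1 hg
    obtain ⟨h01, h10, h00⟩ := (SL2.sq_eq_one_iff_isScal h2 g).1 hg
    have hsq := SL2.IsScal.sq_eq ⟨h01, h10, h00⟩
    rcases sq_eq_one_iff.1 hsq with h | h
    · exfalso
      apply h1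
      ext i k
      fin_cases i <;> fin_cases k <;> simp_all
    · ext i k
      fin_cases i <;> fin_cases k <;> simp_all
  have hej : e ⟨j, hjL⟩ = -1 := hneg _ (fun h => hj1 (congrArg Subtype.val (e.map_eq_one_iff.1 h)))
    (by rw [← map_mul, e.map_eq_one_iff]; exact Subtype.ext (Invol.mul_self_of_orderOf_two hj))
  have hsq : ∀ a (ha : a ∈ L), a * a = j → e ⟨a, ha⟩ * e ⟨a, ha⟩ = -1 := by
    intro a ha h
    rw [← map_mul, ← hej]
    exact congrArg e (Subtype.ext h)
  have hm1 : (-1 : Matrix.SpecialLinearGroup (Fin 2) F) ≠ 1 := by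
    rw [← hej]
    exact fun h => hj1 (congrArg Subtype.val (e.map_eq_one_iff.1 h))
  have htr : ∀ g : Matrix.SpecialLinearGroup (Fin 2) F, g * g = -1 → SL2.tr g = 0 := by
    intro g hg
    refine (SL2.sq_eq_neg_one_of_isScal_sq (fun h => hm1 ?_) ?_).1
    · rw [← hg]; exact (SL2.sq_eq_one_iff_isScal h2 g).2 h
    · rw [hg]; exact (SL2.sq_eq_one_iff_isScal h2 _).1 (by simp)
  refine ⟨hjL, hj1, ?_, ?_, ?_, ?_, ?_⟩
  · intro a ha h
    by_cases h1 : a = 1
    · exact Or.inl h1
    · right
      have := hneg (e ⟨a, ha⟩) (fun h => h1 (congrArg Subtype.val (e.map_eq_one_iff.1 h)))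
        (by rw [← map_mul, e.map_eq_one_iff]; exact Subtype.ext h)
      exact congrArg Subtype.val (e.injective (this.trans hej.symm))
  · intro a ha b hb h h'
    have h3 := htr _ (hsq a ha h)
    have h4 := htr _ (hsq b hb h')
    obtain ⟨c, hc⟩ := isConj_iff.1
      (SL2.isConj_of_tr_eq (SL2.tr_sq_ne_of_tr_zero h2 h3) (h3.trans h4.symm))
    refine ⟨e.symm c, (e.symm c).2, ?_⟩
    have : e.symm c * ⟨a, ha⟩ * (e.symm c)⁻¹ = ⟨b, hb⟩ := e.injective (by simpa using hc)
    exact congrArg Subtype.val this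
  · intro g hg h hh k hk hgg hc hc'
    have h1 : ¬ SL2.IsScal (e ⟨g, hg⟩) := fun h => hgg (by
      have := (SL2.sq_eq_one_iff_isScal h2 _).2 h
      rw [← map_mul, e.map_eq_one_iff] at this
      exact congrArg Subtype.val this)
    have h3 := SL2.commute_of_commute (h := e ⟨h, hh⟩) (k := e ⟨k, hk⟩) h1
      (by rw [← map_mul, ← map_mul]; exact congrArg e (Subtype.ext hc))
      (by rw [← map_mul, ← map_mul]; exact congrArg e (Subtype.ext hc'))
    rw [← map_mul, ← map_mul] at h3
    exact congrArg Subtype.val (e.injective h3)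
  · let w : Matrix.SpecialLinearGroup (Fin 2) F := ⟨!![0, 1; -1, 0], by simp [Matrix.det_fin_two]⟩
    refine ⟨e.symm w, (e.symm w).2, ?_⟩
    have : e.symm w * e.symm w = ⟨j, hjL⟩ := e.injective (by
      rw [map_mul, hej, e.apply_symm_apply]
      apply Subtype.ext
      rw [Matrix.SpecialLinearGroup.coe_mul, Matrix.SpecialLinearGroup.coe_neg,
        Matrix.SpecialLinearGroup.coe_one]
      ext i k
      fin_cases i <;> fin_cases k <;> simp [w, Matrix.mul_apply, Fin.sum_univ_two])
    exact congrArg Subtype.val this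
  · intro M hM a ha
    have key : ∀ g : Matrix.SpecialLinearGroup (Fin 2) F, (e.symm g : G) ∈ M := by
      refine Classical.sl_transvection_induction _ (by simp) ?_ ?_
      · intro i k h c
        have : c = c / 2 + c / 2 := by field_simp; ring
        rw [this, Matrix.SpecialLinearGroup.transvection_add, map_mul]
        exact mul_self_mem_of_index_two hM _
      · intro A B hA hB
        rw [map_mul]
        exact mul_mem hA hB
    simpa using key (e ⟨a, ha⟩)

/-- If the product of `j` with any other conjugate commuting with it is again a conjugate, then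
`j` is `2`-central. -/
theorem odd_index_centralizer_of_mul_conj [Finite G] {j : G} (hj : j * j = 1)
    (h : ∀ y, IsConj j y → Commute j y → y ≠ j → IsConj j (j * y)) :
    ¬ 2 ∣ (centralizer {j}).index := by
  classical
  by_cases hj1 : j = 1
  · subst hj1
    have : centralizer ({1} : Set G) = ⊤ := by
      rw [eq_top_iff]; intro x _; rw [mem_centralizer_singleton_iff]; simp
    rw [this, index_top]; norm_num
  let X := {y // IsConj j y}
  haveI : Fintype X := Fintype.ofFinite X
  have hinv : j⁻¹ = j := inv_eq_of_mul_eq_one_right hj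
  let f : X → X := fun y =>
    if h1 : y.1 = j then y else if h2 : Commute j y.1 then ⟨j * y.1, h y.1 y.2 h2 h1⟩
      else ⟨j * y.1 * j⁻¹, y.2.trans (isConj_iff.2 ⟨j, rfl⟩)⟩
  have hne1 : ∀ y : X, y.1 ≠ 1 := fun y h1 => hj1 (by
    have := y.2; rw [h1] at this; exact isConj_one_left.1 this)
  have hf : ∀ y, f (f y) = y := by
    intro y
    by_cases h1 : y.1 = j
    · simp [f, h1]
    by_cases h2 : Commute j y.1
    · have e1 : f y = ⟨j * y.1, h y.1 y.2 h2 h1⟩ := by simp [f, h1, h2]
      have h3 : j * y.1 ≠ j := fun h => hne1 y (by simpa using h)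
      have h4 : Commute j (j * y.1) := (Commute.refl j).mul_right h2
      rw [e1]
      apply Subtype.ext
      simp only [f, h3, h4, dif_neg, not_false_iff, dif_pos]
      rw [← mul_assoc, hj, one_mul]
    · have e1 : f y = ⟨j * y.1 * j⁻¹, y.2.trans (isConj_iff.2 ⟨j, rfl⟩)⟩ := by simp [f, h1, h2]
      have h3 : j * y.1 * j⁻¹ ≠ j := fun h => h1 (by
        calc y.1 = j⁻¹ * (j * y.1 * j⁻¹) * j := by group
          _ = j := by rw [h]; group)
      have h4 : ¬ Commute j (j * y.1 * j⁻¹) := fun h => h2 (by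
        change j * y.1 = y.1 * j
        calc j * y.1 = j⁻¹ * (j * (j * y.1 * j⁻¹)) * j := by group
          _ = j⁻¹ * ((j * y.1 * j⁻¹) * j) * j := by rw [h.eq]
          _ = y.1 * j := by group)
      rw [e1]
      apply Subtype.ext
      simp only [f, h3, h4, dif_neg, not_false_iff]
      calc j * (j * y.1 * j⁻¹) * j⁻¹ = (j * j) * y.1 * (j * j)⁻¹ := by group
        _ = y.1 := by rw [hj]; group
  have hfix : ∀ y, f y = y ↔ y = ⟨j, IsConj.refl j⟩ := by
    intro y
    constructor
    · intro hy
      by_contra h1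
      have h1' : y.1 ≠ j := fun h => h1 (Subtype.ext h)
      by_cases h2 : Commute j y.1
      · have := congrArg Subtype.val hy
        simp only [f, h1', h2, dif_neg, not_false_iff, dif_pos] at this
        exact hj1 (by simpa using this)
      · have := congrArg Subtype.val hy
        simp only [f, h1', h2, dif_neg, not_false_iff] at this
        exact h2 (mul_inv_eq_iff_eq_mul.1 this)
    · rintro rfl
      simp [f]
  haveI : Fact (Nat.Prime 2) := ⟨Nat.prime_two⟩
  have hmod := Equiv.Perm.card_fixedPoints_modEq (α := X) (f := f) (p := 2) (n := 1)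
    (funext hf)
  have h1 : Fintype.card (Function.fixedPoints f) = 1 := by
    rw [Fintype.card_eq_one_iff]
    exact ⟨⟨_, (hfix _).2 rfl⟩, fun y => Subtype.ext ((hfix _).1 y.2)⟩
  have hX : Fintype.card X = (centralizer {j}).index := by
    rw [← Nat.card_eq_fintype_card]
    have h3 := Isol.card_eq_card_centralizer_mul j
    rw [← (centralizer ({j} : Set G)).card_mul_index] at h3
    exact (Nat.eq_of_mul_eq_mul_left Nat.card_pos h3).symm
  rw [h1, hX] at hmod
  unfold Nat.ModEq at hmod
  omega

end CfsgLib.InvChar
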